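import Cfsg.Agent.H529.LB.MSqC
import Cfsg.Agent.H878.LB.MTwo
import Cfsg.Agent.LThreeB.Row

/-!
# S4879, the Monster, `p = 11`, piece M3: the colour of `(x, t x)` for an axis involution `t` (helper529)

`m3 : LThreeB.Row.TA t → ∃ z, ∀ x, c x (t • x) = H878.LB.sq (c z x)`.
-/

set_option autoImplicit false
set_option maxRecDepth 100000

namespace Cfsg.Agent.H529.LB.MSq

open Cfsg Cfsg.Agent Cfsg.Agent.MonsterX Cfsg.Agent.MonsterX.Space Cfsg.Agent.MonsterX.Conc Cfsg.Agent.MonsterX.InstData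
open Cfsg.Agent.MonsterX.Model Cfsg.Agent.MonsterX.MainBasic Cfsg.Agent.MonsterX.MainPack
open Cfsg.Agent.H816.MTab Cfsg.Agent.H816.MRun Cfsg.Agent.H816.MCol Cfsg.Agent.H816.MEnt Cfsg.Agent.H816.MCnt
open Cfsg.Agent.H816.MSch Cfsg.Agent.H816.IMEig
open Cfsg.Agent.MonsterX.CertUTab Cfsg.Agent.MonsterX.PairValTab

/-- The involution of the base axis. -/
noncomputable def t0 : ↥M.G := tG H816.MEnt.hG H816.MEnt.hR

theorem t0_val : ((t0 : ↥M.G) : V ≃ₗ[ℚ] V) = M.t₀ := rfl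

theorem smul_b0 {g : ↥M.G} (h : g • b0 = b0) : g * t0 = t0 * g := by
  have h1 : (g : V ≃ₗ[ℚ] V) M.a₀ = M.a₀ := congrArg Subtype.val h
  have h2 := tx_of H816.MEnt.hG H816.MEnt.hR H816.MEnt.hL H816.MEnt.hO H816.MEnt.hT g.2
  rw [h1, tx_a₀ H816.MEnt.hG H816.MEnt.hR H816.MEnt.hL H816.MEnt.hO H816.MEnt.hT] at h2
  apply Subtype.ext
  show (g : V ≃ₗ[ℚ] V) * M.t₀ = M.t₀ * (g : V ≃ₗ[ℚ] V)
  nth_rewrite 2 [h2]
  rw [mul_assoc, mul_assoc, inv_mul_cancel, mul_one]

/-- The pair `(y, t₀ y)` depends only on the colour of `(b0, y)`. -/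
theorem c_congr {y y' : XT} (h : c b0 y = c b0 y') : c y (t0 • y) = c y' (t0 • y') := by
  obtain ⟨g, h0, h1⟩ := c_tr b0 y b0 y' h
  rw [← h1, ← mul_smul, ← smul_b0 h0, mul_smul, c_inv]

/-- The value of the pair `(y, t₀ y)`. -/
theorem F_t0 (y : XT) : M.F y.1 (t0 • y).1 = 8 - 2 * mass mt0 y.1 := by
  have h1 := F_t₀ y.1
  rw [show F y.1 y.1 = 8 from F_self y.2] at h1
  exact h1

/-- The representatives. -/
noncomputable def yX (j m : ℕ) (h : Val (j, m, false)) : XT := ⟨yE (j, m, false), yE_X h⟩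

theorem c_yX {j m : ℕ} (h : Val (j, m, false)) : (c b0 (yX j m h)).1 = (kc j m).1 := col_k0 h

theorem F_yX {j m : ℕ} (h : Val (j, m, false)) {d : ℕ} (hq : typC j m [(mt0, d)] = true) :
    M.F (yX j m h).1 (t0 • yX j m h).1 = 8 - 2 * ((d : ℚ) / 4 ^ 8) := by
  rw [F_t0]
  have h1 : mass mt0 (yX j m h).1 = (d : ℚ) / 4 ^ 8 := by
    show mass mt0 (yE (j, m, false)) = _
    rw [yE_false]
    exact mass_of hq (List.mem_singleton.2 rfl)
  rw [h1]

/-- The colour of `(y, t₀ y)` for the colours with a kernel check. -/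
theorem c_of {y : XT} {j m : ℕ} (h : Val (j, m, false)) {d : ℕ} (hq : typC j m [(mt0, d)] = true)
    (hy : (c b0 y).1 = (kc j m).1) {u : Fin 9} (h4 : u ≠ 4) (h6 : u ≠ 6)
    (hd : (8 : ℚ) - 2 * ((d : ℚ) / 4 ^ 8) = (vv u : ℚ) / 32) : c y (t0 • y) = u := by
  rw [c_congr (y' := yX j m h) (Fin.ext (hy.trans (c_yX h).symm))]
  exact (F_iff (yX j m h).2 (t0 • yX j m h).2 h4 h6).2 ((F_yX h hq).trans hd)

/-- The second invariant. -/
theorem psi_t0 (y : XT) : psi M M.a₀ y.1 = M.F y.1 (t0 • y).1 :=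
  psi_a₀ H816.MEnt.hG H816.MEnt.hR H816.MEnt.hL H816.MEnt.hO H816.MEnt.hT y.1

theorem F_b0 (y : XT) : M.F M.a₀ y.1 = (vv (c b0 y) : ℚ) / 32 := F_eq a₀_X y.2

/-- `4B` -/
theorem c_six {y : XT} (h : c b0 y = 6) : c y (t0 • y) = 1 := by
  refine (F_iff y.2 (t0 • y).2 (by decide) (by decide)).2 ?_
  rw [← psi_t0]
  by_contra hne
  have h1 : psi M M.a₀ y.1 ≠ 1 := by
    intro h2; apply hne; rw [h2]; norm_num [vv]
  have h2 : c b0 y = code (M.F M.a₀ y.1) (psi M M.a₀ y.1) := rfl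
  have h3 := F_b0 y
  rw [h] at h3
  rw [h3] at h2
  have h4 : code (((vv 6 : ℕ) : ℚ) / 32) (psi M M.a₀ y.1) = 4 := by
    unfold code
    norm_num [vv, h1]
  rw [h4, h] at h2
  exact absurd h2 (by decide)

/-- The involution of an axis. -/
noncomputable def T (z : XT) : ↥M.G := (c_trans b0 z).choose * t0 * (c_trans b0 z).choose⁻¹

theorem T_of (g : ↥M.G) : T (g • b0) = g * t0 * g⁻¹ := by
  have h := (c_trans b0 (g • b0)).choose_spec
  set k := (c_trans b0 (g • b0)).choose with hk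
  have h1 : (g⁻¹ * k) • b0 = b0 := by rw [mul_smul, h, inv_smul_smul]
  have h2 := smul_b0 h1
  show k * t0 * k⁻¹ = g * t0 * g⁻¹
  calc k * t0 * k⁻¹ = g * ((g⁻¹ * k) * t0) * k⁻¹ := by group
    _ = g * (t0 * (g⁻¹ * k)) * k⁻¹ := by rw [h2]
    _ = g * t0 * g⁻¹ := by group

theorem T_smul (g : ↥M.G) (z : XT) : T (g • z) = g * T z * g⁻¹ := by
  obtain ⟨k, rfl⟩ := c_trans b0 z
  rw [← mul_smul, T_of, T_of]
  group

/-- `3C` -/
theorem c_four {y : XT} (h : c b0 y = 4) : c y (t0 • y) = 4 := by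
  have hv : Val (4, 6, false) := by decide
  have h1 : M.F y.1 (t0 • y).1 = ((4 : ℕ) : ℚ) / 32 := by
    have e1 : c b0 y = c b0 (yX 4 6 hv) := by
      rw [h]
      refine Fin.ext ?_
      rw [c_yX hv]
      decide
    obtain ⟨g, h0, h1⟩ := c_tr b0 y b0 (yX 4 6 hv) e1
    have h2 : M.F y.1 (t0 • y).1 = M.F (yX 4 6 hv).1 (t0 • yX 4 6 hv).1 := by
      rw [← h1, ← mul_smul, ← smul_b0 h0, mul_smul]
      exact (G_isom H816.MEnt.hO H816.MEnt.hR g.2 _ _).symm
    rw [h2, F_t0]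
    have h3 : mass mt0 (yX 4 6 hv).1 = ((pm 1 : ℕ) : ℚ) / 4 ^ 8 :=
      mass_mt0 (by decide) (by decide) (by decide)
    rw [h3]
    norm_num [pm]
  rcases (F_iff_four y.2 (t0 • y).2).2 h1 with h2 | h2
  · exact h2
  · exfalso
    have h2' : c y (t0 • y) = 6 := h2
    -- every axis of colour 4 with `b0` moves `b0` to an axis of colour 6, and these are all
    obtain ⟨g, hg⟩ := c_trans y b0
    have hz : c (g • b0) b0 = 4 := by
      nth_rewrite 2 [← hg]
      rw [c_inv, h]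
    have hT : T (g • b0) • b0 = g • t0 • y := by
      rw [T_of, mul_smul, mul_smul]
      congr 2
      rw [← hg, inv_smul_smul]
    have hx : c b0 (T (g • b0) • b0) = 6 := by
      rw [hT]
      nth_rewrite 1 [← hg]
      rw [c_inv, h2']
    have := finite_G
    have hle : Nat.card {w // c b0 w = (6 : Fin 9)} ≤ Nat.card {z // c b0 z = (4 : Fin 9)} := by
      classical
      have key : ∀ w : {w // c b0 w = (6 : Fin 9)}, ∃ z : {z // c b0 z = (4 : Fin 9)}, T z.1 • b0 = w.1 := by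
        rintro ⟨w, hw⟩
        obtain ⟨k, k0, k1⟩ := c_tr b0 (T (g • b0) • b0) b0 w (hx.trans hw.symm)
        refine ⟨⟨k • g • b0, ?_⟩, ?_⟩
        · rw [isCol.symm]
          nth_rewrite 2 [← k0]
          rw [c_inv]
          exact hz
        · show T (k • g • b0) • b0 = w
          rw [T_smul, mul_smul, mul_smul]
          have : k⁻¹ • b0 = b0 := by
            nth_rewrite 1 [← k0]
            rw [inv_smul_smul]
          rw [this, k1]
      refine Nat.card_le_card_of_injective (fun w => (key w).choose) ?_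
      intro w w' hww
      have e1 := (key w).choose_spec
      have e2 := (key w').choose_spec
      have e3 : (key w).choose = (key w').choose := hww
      rw [e3, e2] at e1
      exact Subtype.ext e1.symm
    have k6 := kk_eq 6
    have k4 := kk_eq 4
    unfold Col.kk at k6 k4
    rw [k6, k4] at hle
    exact absurd hle (by decide)

theorem c_zero {y : XT} (h : c b0 y = 0) : c y (t0 • y) = 0 := by
  have e := (c_diag b0 y).1 h
  subst e
  refine (c_diag _ _).2 ?_
  exact Subtype.ext (H816.MEnt.hR.t₀_a₀).symm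

/-- **The colour of the pair `(y, t₀ y)`.** -/
theorem c_sq (y : XT) : c y (t0 • y) = H878.LB.sq (c b0 y) := by
  generalize hu : c b0 y = u
  fin_cases u
  · exact c_zero hu
  · exact c_of (u := 0) (j := 0) (m := 1) (by decide) MSqC.q1 (by rw [hu]; decide) (by decide) (by decide) (by norm_num [vv])
  · exact c_of (u := 0) (j := 0) (m := 0) (by decide) MSqC.q2 (by rw [hu]; decide) (by decide) (by decide) (by norm_num [vv])
  · exact c_of (u := 3) (j := 5) (m := 3) (by decide) MSqC.q3 (by rw [hu]; decide) (by decide) (by decide) (by norm_num [vv])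
  · exact c_four hu
  · exact c_of (u := 2) (j := 4) (m := 0) (by decide) MSqC.q5 (by rw [hu]; decide) (by decide) (by decide) (by norm_num [vv])
  · exact c_six hu
  · exact c_of (u := 7) (j := 7) (m := 2) (by decide) MSqC.q7 (by rw [hu]; decide) (by decide) (by decide) (by norm_num [vv])
  · exact c_of (u := 3) (j := 5) (m := 4) (by decide) MSqC.q8 (by rw [hu]; decide) (by decide) (by decide) (by norm_num [vv])

/-- **Piece M3**: the colour of the pair `(x, t x)` for an axis involution `t` of the axis `z`. -/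
theorem m3 {t : ↥M.G} (ht : LThreeB.Row.TA t) : ∃ z : XT, ∀ x : XT, c x (t • x) = H878.LB.sq (c z x) := by
  have ht' : IsConj t0 t := ht
  obtain ⟨g, hg⟩ := isConj_iff.1 ht'
  refine ⟨g • b0, fun x => ?_⟩
  obtain ⟨y, rfl⟩ : ∃ y, x = g • y := ⟨g⁻¹ • x, by rw [smul_inv_smul]⟩
  rw [← hg, c_inv, ← c_sq, mul_smul, mul_smul, inv_smul_smul, c_inv]

end Cfsg.Agent.H529.LB.MSq
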