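import Cfsg.Agent.H816.MTab

/-!
# Kernel checks: the masses of `t₀` at one representative for each colour (helper529)
-/

set_option autoImplicit false
set_option maxRecDepth 100000
set_option Elab.async false

namespace Cfsg.Agent.H529.LB.MSqC

open Cfsg.Agent.H816.MTab Cfsg.Agent.H816.MRun Cfsg.Agent.MonsterX.InstData

/-- `2A` -/
theorem q1 : typC 0 1 [(mt0, 0)] = true := by decide +kernel

/-- `2B` -/
theorem q2 : typC 0 0 [(mt0, 0)] = true := by decide +kernel

/-- `3A` -/
theorem q3 : typC 5 3 [(mt0, 248832)] = true := by decide +kernel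

/-- `4A` -/
theorem q5 : typC 4 0 [(mt0, 262144)] = true := by decide +kernel

/-- `5A` -/
theorem q7 : typC 7 2 [(mt0, 256000)] = true := by decide +kernel

/-- `6A` -/
theorem q8 : typC 5 4 [(mt0, 248832)] = true := by decide +kernel

end Cfsg.Agent.H529.LB.MSqC
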